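import Mathlib
import Cfsg.Agent.Lib.Char.DegDvd
import Cfsg.Agent.Lib.Char.Central
import Cfsg.Agent.Lib.Char.RealOdd
import Cfsg.Agent.Lib.Char.Degree
import Cfsg.Agent.Lib.Char.Linear
import Cfsg.Agent.Lib.Char.IndRep
import Cfsg.Agent.Lib.Blocks.Brauer
import Cfsg.Agent.Lib.BlockH.Basic
import Cfsg.Agent.Lib.CharDeep.ThompsonDeg

/-!
# Kernels of the irreducible characters of degree prime to `p`

Elementary lemmas on constituents of degree prime to `p`.
-/

set_option autoImplicit false
set_option linter.unusedSectionVars false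

namespace Cfsg.Agent.Lib.PrimeKer.Basic

open Cfsg Subgroup Module
open Cfsg.Agent.Lib.Char.Basic Cfsg.Agent.Lib.Char.Ortho Cfsg.Agent.Lib.Char.Complete
open Cfsg.Agent.Lib.Char.Induced Cfsg.Agent.Lib.Char.IndRep Cfsg.Agent.Lib.Char.Clifford
open Cfsg.Agent.Lib.Char.Degree Cfsg.Agent.Lib.Char.Linear
open scoped ComplexConjugate

universe u

section General

variable {G : Type u} [Group G] [Fintype G]

/-- A character of degree prime to `p` has an irreducible constituent of degree prime to `p`. -/
theorem exists_constituent_not_dvd {p : ℕ} {τ : G → ℂ} (hτ : IsCharacter G τ) (d : ℕ)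
    (hd : τ 1 = d) (hpd : ¬ p ∣ d) :
    ∃ χ : IrrCharacter G, classInner τ (χ : G → ℂ) ≠ 0 ∧ ¬ p ∣ charDegree (χ : G → ℂ) := by
  classical
  haveI := finite_irrCharacter (G := G)
  letI := Fintype.ofFinite (IrrCharacter G)
  obtain ⟨m, hm⟩ := exists_nat_combination hτ
  by_contra hcon
  push Not at hcon
  apply hpd
  have hinner : ∀ i : IrrCharacter G, classInner τ (i : G → ℂ) = m i := by
    intro i
    rw [hm, classInner_sum_left, Finset.sum_eq_single i]
    · rw [classInner_nsmul_left, classInner_self_of_isIrr i.2]; simp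
    · intro j _ hj
      rw [classInner_nsmul_left,
        classInner_eq_zero_of_isIrr_of_ne j.2 i.2 (fun h => hj (Subtype.ext h))]
      simp
    · intro h; exact absurd (Finset.mem_univ _) h
  have hsum : d = ∑ i, m i * charDegree (i : G → ℂ) := by
    have h1 : (d : ℂ) = ∑ i, (m i : ℂ) * (charDegree (i : G → ℂ) : ℂ) := by
      rw [← hd, hm, Finset.sum_apply]
      refine Finset.sum_congr rfl fun i _ => ?_
      rw [charDegree_natCast (isCharacter_of_isIrrCharacter i.2)]
      simp
    exact_mod_cast h1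
  rw [hsum]
  refine Finset.dvd_sum fun i _ => ?_
  by_cases h : m i = 0
  · simp [h]
  · exact Dvd.dvd.mul_left (hcon i (by rw [hinner]; exact_mod_cast h)) _

/-- A constituent of a character takes its degree wherever the character does. -/
theorem eq_deg_of_constituent {χ η : G → ℂ} (hχ : IsCharacter G χ) (hη : IsIrrCharacter G η)
    (h : classInner χ η ≠ 0) {k : G} (hk : χ k = χ 1) : η k = η 1 := by
  have hξ := isCharacter_sub_of_classInner_ne_zero hχ hη h
  have hηc := isCharacter_of_isIrrCharacter hη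
  have h1 := norm_le_charDegree hηc k
  have h2 := norm_le_charDegree hξ k
  have ha : η 1 = (charDegree η : ℂ) := (charDegree_natCast hηc).symm
  have hb : (χ - η) 1 = (charDegree (χ - η) : ℂ) := (charDegree_natCast hξ).symm
  have hsum : η k + (χ - η) k = (charDegree η : ℂ) + (charDegree (χ - η) : ℂ) := by
    rw [← ha, ← hb]
    simp [hk]
  have hre := congrArg Complex.re hsum
  simp only [Complex.add_re, Complex.natCast_re] at hre
  have h3 : (η k).re ≤ ‖η k‖ := Complex.re_le_norm _
  have h4 : ((χ - η) k).re ≤ ‖(χ - η) k‖ := Complex.re_le_norm _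
  have h5 : (η k).re = charDegree η := by linarith
  have h6 : ‖η k‖ = charDegree η := by
    apply le_antisymm h1
    rw [← h5]; exact h3
  have h7 : (η k).im = 0 := by
    have h8 := Complex.sq_norm (η k)
    rw [Complex.normSq_apply, h6, h5] at h8
    nlinarith
  rw [ha]
  apply Complex.ext
  · simpa using h5
  · simpa using h7

/-- A nonzero sum over a normal subgroup forces the subgroup into the kernel. -/
theorem eq_deg_of_sum_ne_zero {N : Subgroup G} (hN : N.Normal) [Fintype N] {χ : G → ℂ}
    (hχ : IsIrrCharacter G χ) (h : ∑ n : N, χ n ≠ 0) (n : N) : χ n = χ 1 := by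
  refine Cfsg.Agent.Lib.Char.DegDvd.apply_eq_one_of_constituent_one hN hχ ?_ n
  rw [classInner_indFun_left N _ χ (isClassFunction_of_isIrrCharacter hχ)]
  rw [classInner_subgroup_eq]
  simp only [one_mul]
  refine mul_ne_zero (inv_ne_zero (Nat.cast_ne_zero.mpr Nat.card_pos.ne')) ?_
  intro h0
  apply h
  have : conj (∑ n : N, χ n) = 0 := by
    rw [map_sum]
    exact h0
  exact (map_eq_zero (starRingEnd ℂ)).mp this

/-- Irreducible characters of degree prime to `p` of a group with a `p`-subgroup mapping onto a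
quotient by the kernel are linear. -/
theorem deg_eq_one_of_surjective {p : ℕ} [hp : Fact p.Prime] {η : G → ℂ} (hη : IsIrrCharacter G η)
    (hpd : ¬ p ∣ charDegree η) {Q : Type*} [Group Q] [Finite Q] (hQ : IsPGroup p Q) (f : Q →* G)
    (hf : ∀ x : G, ∃ y : Q, ∃ k : G, η k = η 1 ∧ x = k * f y) : η 1 = 1 := by
  have hηc := isCharacter_of_isIrrCharacter hη
  let K := charKer hηc
  haveI : K.Normal := charKer_normal hηc
  have hsurj : Function.Surjective ((QuotientGroup.mk' K).comp f) := by
    intro q
    obtain ⟨x, rfl⟩ := QuotientGroup.mk'_surjective K q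
    obtain ⟨y, k, hk, hx⟩ := hf x
    refine ⟨y, ?_⟩
    simp only [MonoidHom.comp_apply, QuotientGroup.mk'_apply]
    rw [QuotientGroup.eq]
    rw [hx]
    have : (f y)⁻¹ * (k * f y) = (f y)⁻¹ * k * (f y)⁻¹⁻¹ := by group
    rw [this]
    exact (charKer_normal hηc).conj_mem k hk _
  have hpg : IsPGroup p (G ⧸ K) := hQ.of_surjective _ hsurj
  obtain ⟨n, hn⟩ := IsPGroup.iff_card.mp hpg
  obtain ⟨φ, hφ, hdesc⟩ : ∃ φ : G ⧸ K → ℂ, IsIrrCharacter (G ⧸ K) φ ∧ η = φ ∘ QuotientGroup.mk := by
    have := isIrrCharacter_descend (QuotientGroup.mk' K) (QuotientGroup.mk'_surjective K) hη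
      (fun k hk => by
        rw [QuotientGroup.ker_mk'] at hk
        exact hk)
    exact this
  have hdeg : charDegree η = charDegree φ := by
    rw [hdesc]
    simp [charDegree]
  have hdvd : charDegree η ∣ p ^ n := by
    rw [hdeg, ← hn]
    exact charDegree_dvd_card hφ
  obtain ⟨j, -, hj⟩ := (Nat.dvd_prime_pow hp.out).mp hdvd
  rcases j with _ | j
  · rw [← charDegree_natCast hηc, hj]; simp
  · exact absurd (by rw [hj, pow_succ]; exact dvd_mul_left _ _) hpd

end General

end Cfsg.Agent.Lib.PrimeKer.Basic
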