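import Cfsg.Agent.Lib.PrimeKer.Basic

/-!
# The intersection of the kernels of the irreducible characters of degree prime to `p`
-/

set_option autoImplicit false
set_option linter.unusedSectionVars false

namespace Cfsg.Agent.Lib.PrimeKer.Main

open Cfsg Subgroup Module
open Cfsg.Agent.Lib.Char.Basic Cfsg.Agent.Lib.Char.Ortho Cfsg.Agent.Lib.Char.Complete
open Cfsg.Agent.Lib.Char.Induced Cfsg.Agent.Lib.Char.IndRep Cfsg.Agent.Lib.Char.Clifford
open Cfsg.Agent.Lib.Char.Degree Cfsg.Agent.Lib.Char.Linear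
open Cfsg.Agent.Lib.Blocks.Local Cfsg.Agent.Lib.Blocks.Central Cfsg.Agent.Lib.Blocks.Brauer
open Cfsg.Agent.Lib.PrimeKer.Basic
open scoped ComplexConjugate commutatorElement

universe u

variable {G : Type u} [Group G] [Finite G] {p : ℕ} [hp : Fact p.Prime]

/-- The conjugation action of a subgroup on a normal subgroup. -/
def conjAct (Q N : Subgroup G) [hN : N.Normal] : MulAction Q N where
  smul q x := ⟨(q : G) * x * (q : G)⁻¹, hN.conj_mem x x.2 q⟩
  one_smul x := Subtype.ext (by
    change ((1 : Q) : G) * x * ((1 : Q) : G)⁻¹ = x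
    simp)
  mul_smul a b x := Subtype.ext (by
    change ((a * b : Q) : G) * x * ((a * b : Q) : G)⁻¹ =
      (a : G) * ((b : G) * x * (b : G)⁻¹) * (a : G)⁻¹
    simp only [coe_mul, mul_inv_rev]
    group)

theorem conjAct_smul_coe (Q N : Subgroup G) [hN : N.Normal] (q : Q) (x : N) :
    ((letI := conjAct Q N; q • x : N) : G) = (q : G) * x * (q : G)⁻¹ := rfl

/-- A fixed point of the conjugation action lies in the centraliser. -/
theorem mem_centralizer_of_fixed (Q N : Subgroup G) [hN : N.Normal] (x : N)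
    (hx : ∀ q : Q, (letI := conjAct Q N; q • x) = x) : (x : G) ∈ centralizer (Q : Set G) := by
  rw [Subgroup.mem_centralizer_iff]
  intro q hq
  have h1 := congrArg (Subtype.val) (hx ⟨q, hq⟩)
  rw [conjAct_smul_coe] at h1
  simp only at h1
  rw [mul_inv_eq_iff_eq_mul] at h1
  exact h1

/-- A normal subgroup in which the Sylow `p`-subgroup has trivial centraliser has order prime
to `p`. -/
theorem not_dvd_card_of_inf_eq_bot (P : Sylow p G) (N : Subgroup G) [hNn : N.Normal]
    (hN : N ⊓ centralizer ((P : Subgroup G) : Set G) = ⊥) : ¬ p ∣ Nat.card N := by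
  classical
  intro hdvd
  letI := conjAct (P : Subgroup G) N
  have hfix : (1 : N) ∈ MulAction.fixedPoints (P : Subgroup G) N := by
    intro q
    apply Subtype.ext
    rw [conjAct_smul_coe]
    simp
  obtain ⟨b, hb, hne⟩ := IsPGroup.exists_fixed_point_of_prime_dvd_card_of_fixed_point (p := p)
    (G := (P : Subgroup G)) (α := N) P.isPGroup' hdvd hfix
  have h1 : (b : G) ∈ N ⊓ centralizer ((P : Subgroup G) : Set G) :=
    ⟨b.2, mem_centralizer_of_fixed _ N b hb⟩
  rw [hN, Subgroup.mem_bot] at h1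
  exact hne (Subtype.ext (by simp [h1]))

/-- **Part A**: `N` lies in the kernel of each irreducible character of degree prime to `p`. -/
theorem eq_deg_of_mem_N (P : Sylow p G) (N : Subgroup G) [hNn : N.Normal]
    (hN : N ⊓ centralizer ((P : Subgroup G) : Set G) = ⊥) (χ : IrrCharacter G)
    (hχ : ¬ p ∣ charDegree (χ : G → ℂ)) {n : G} (hn : n ∈ N) : (χ : G → ℂ) n = (χ : G → ℂ) 1 := by
  classical
  letI := Fintype.ofFinite G
  letI : Fintype N := Fintype.ofFinite N
  obtain ⟨M, hM⟩ := Cfsg.Agent.Lib.BlockH.Basic.exists_isPModular (p := p) hp.out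
  haveI := isPrime_of_pModular hM
  letI := conjAct (P : Subgroup G) N
  have hcf := isClassFunction_of_isIrrCharacter χ.2
  have hsum : ∑ x : N, (χ : G → ℂ) x ≠ 0 := by
    intro h0
    have key := sum_zero_on_fixed_mem hM (Q := (P : Subgroup G)) (X := N) P.isPGroup'
      (fun x => if x = 1 then 0 else (χ : G → ℂ) x)
      (by
        intro q x
        have h1 : q • x = 1 ↔ x = 1 := by
          constructor
          · intro h
            have := congrArg (fun y => q⁻¹ • y) h
            simp only [inv_smul_smul] at this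
            rw [this]
            apply Subtype.ext
            rw [conjAct_smul_coe]
            simp
          · rintro rfl
            apply Subtype.ext
            rw [conjAct_smul_coe]
            simp
        simp only [h1]
        split_ifs
        · rfl
        · rw [conjAct_smul_coe]
          exact hcf _ _)
      (by
        intro x
        split_ifs
        · exact memLocalRing_zero
        · exact memLocalRing_of_isIntegral (Cfsg.Agent.Lib.Char.RealOdd.isIntegral_irr χ.2 _))
      (by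
        intro x hx
        have h1 : (x : G) ∈ N ⊓ centralizer ((P : Subgroup G) : Set G) :=
          ⟨x.2, mem_centralizer_of_fixed _ N x hx⟩
        rw [hN, Subgroup.mem_bot] at h1
        have h2 : x = 1 := Subtype.ext (by simp [h1])
        simp [h2])
    have hsplit : ∑ x : N, (χ : G → ℂ) x =
        (χ : G → ℂ) 1 + ∑ x : N, (if x = 1 then 0 else (χ : G → ℂ) x) := by
      have h3 : ∀ x : N, (χ : G → ℂ) x = (if x = 1 then (χ : G → ℂ) 1 else 0) +
          (if x = 1 then 0 else (χ : G → ℂ) x) := by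
        intro x
        by_cases hx : x = 1
        · simp [hx]
        · simp [hx]
      rw [Finset.sum_congr rfl (fun x _ => h3 x), Finset.sum_add_distrib]
      simp
    rw [h0] at hsplit
    have h4 : (χ : G → ℂ) 1 = -∑ x : N, (if x = 1 then 0 else (χ : G → ℂ) x) := by
      linear_combination -hsplit
    have h5 : MemLocalIdeal M ((χ : G → ℂ) 1) := by
      rw [h4]
      exact memLocalIdeal_neg key
    rw [← charDegree_natCast (isCharacter_of_isIrrCharacter χ.2)] at h5
    exact hχ ((natCast_memLocalIdeal_iff hM _).mp h5)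
  exact eq_deg_of_sum_ne_zero hNn χ.2 hsum ⟨n, hn⟩

/-- An element in the kernel of an irreducible character can be dropped from its argument. -/
theorem char_mul_of_ker {χ : G → ℂ} (hχ : IsCharacter G χ) {n : G} (hn : χ n = χ 1) (a : G) :
    χ (n * a) = χ a := by
  obtain ⟨d, ρ, rfl⟩ := hχ
  have h1 := (character_eq_one_iff ρ n).mp hn
  simp [Representation.character, map_mul, h1]

/-- `χ_P` has a linear constituent when `χ` has degree prime to `p`. -/
theorem exists_linear_constituent (P : Sylow p G) [Fintype (P : Subgroup G)] (χ : IrrCharacter G)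
    (hχ : ¬ p ∣ charDegree (χ : G → ℂ)) :
    ∃ lam : (P : Subgroup G) →* ℂˣ,
      classInner (fun y : (P : Subgroup G) => (χ : G → ℂ) y) (fun y => (lam y : ℂ)) ≠ 0 := by
  classical
  have hres := isCharacter_restrict (P : Subgroup G) (isCharacter_of_isIrrCharacter χ.2)
  obtain ⟨η, h1, h2⟩ := exists_constituent_not_dvd (p := p) hres (charDegree (χ : G → ℂ))
    (by
      rw [charDegree_natCast (isCharacter_of_isIrrCharacter χ.2)]
      simp) hχ
  have hη1 : η.1 1 = 1 := by
    refine deg_eq_one_of_surjective η.2 h2 (Q := (P : Subgroup G)) P.isPGroup' (MonoidHom.id _) ?_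
    intro x
    exact ⟨x, 1, rfl, by simp⟩
  obtain ⟨lam, hlam⟩ := exists_hom_of_deg_one (isCharacter_of_isIrrCharacter η.2) hη1
  refine ⟨lam, ?_⟩
  rw [← hlam]
  exact h1


theorem commutator_le_self (H : Subgroup G) : ⁅H, H⁆ ≤ H :=
  Subgroup.commutator_le.mpr fun x hx y hy => by
    rw [commutatorElement_def]
    exact H.mul_mem (H.mul_mem (H.mul_mem hx hy) (H.inv_mem hx)) (H.inv_mem hy)

/-- A linear character of a group `H` of `G` is trivial on `⁅H, H⁆`. -/
theorem hom_eq_one_of_mem_commutator (H : Subgroup G) (lam : H →* ℂˣ) {a : G} (ha : a ∈ ⁅H, H⁆)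
    (haH : a ∈ H) : lam ⟨a, haH⟩ = 1 := by
  have hle : ⁅H, H⁆ ≤ (lam.ker).map H.subtype := by
    refine Subgroup.commutator_le.mpr fun x hx y hy => ?_
    refine ⟨⁅(⟨x, hx⟩ : H), (⟨y, hy⟩ : H)⁆, ?_, ?_⟩
    · rw [SetLike.mem_coe, MonoidHom.mem_ker, map_commutatorElement,
        commutatorElement_eq_one_iff_mul_comm, mul_comm]
    · rfl
  obtain ⟨z, hz, hza⟩ := hle ha
  have : (⟨a, haH⟩ : H) = z := Subtype.ext hza.symm
  rw [this]
  exact hz

theorem disjoint_N_of_pGroup (N A : Subgroup G) (hNp : ¬ p ∣ Nat.card N) (hA : IsPGroup p A)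
    {z : G} (hzN : z ∈ N) (hzA : z ∈ A) : z = 1 := by
  obtain ⟨k, hk⟩ := (IsPGroup.iff_orderOf.mp hA) ⟨z, hzA⟩
  rw [Subgroup.orderOf_mk] at hk
  have h1 : orderOf z ∣ Nat.card N := Subgroup.orderOf_dvd_natCard N hzN
  rcases k with _ | k
  · rw [pow_zero] at hk
    exact orderOf_eq_one_iff.mp hk
  · exact absurd ((dvd_pow_self p (Nat.succ_ne_zero k)).trans (hk ▸ h1)) hNp

/-- **Part C**: the normal core of `N P'` lies in the kernel of each irreducible character of
degree prime to `p`. -/
theorem eq_deg_of_mem_core (P : Sylow p G) (N : Subgroup G) [hNn : N.Normal]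
    (hN : N ⊓ centralizer ((P : Subgroup G) : Set G) = ⊥) (χ : IrrCharacter G)
    (hχ : ¬ p ∣ charDegree (χ : G → ℂ)) {m : G}
    (hm : m ∈ (N ⊔ ⁅(P : Subgroup G), (P : Subgroup G)⁆).normalCore) :
    (χ : G → ℂ) m = (χ : G → ℂ) 1 := by
  classical
  letI := Fintype.ofFinite G
  set A : Subgroup G := ⁅(P : Subgroup G), (P : Subgroup G)⁆ with hA
  set Y : Subgroup G := N ⊔ A with hY
  letI : Fintype (P : Subgroup G) := Fintype.ofFinite _
  letI : Fintype A := Fintype.ofFinite _
  letI : Fintype N := Fintype.ofFinite _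
  letI : Fintype Y := Fintype.ofFinite _
  letI : Fintype Y.normalCore := Fintype.ofFinite _
  have hAP : A ≤ (P : Subgroup G) := commutator_le_self _
  have hχc := isCharacter_of_isIrrCharacter χ.2
  obtain ⟨lam, hlam⟩ := exists_linear_constituent P χ hχ
  let inc : A →* (P : Subgroup G) := Subgroup.inclusion hAP
  have hone : IsIrrCharacter A (fun _ => (1 : ℂ)) :=
    isIrrCharacter_of_deg_one isCharacter_one rfl
  have h1 : classInner ((fun y : (P : Subgroup G) => (χ : G → ℂ) y) ∘ inc) (fun _ => (1 : ℂ)) ≠ 0 := by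
    refine classInner_ne_zero_mono inc (isCharacter_restrict _ hχc)
      (isIrrCharacter_of_hom lam) hlam isCharacter_one ?_
    have hfun : (fun y : (P : Subgroup G) => (lam y : ℂ)) ∘ inc = fun _ => (1 : ℂ) := by
      funext a
      have := hom_eq_one_of_mem_commutator (P : Subgroup G) lam a.2 (hAP a.2)
      simp only [Function.comp_apply]
      change ((lam ⟨a, hAP a.2⟩ : ℂˣ) : ℂ) = 1
      rw [this]
      simp
    rw [hfun, classInner_self_of_isIrr hone]
    exact one_ne_zero
  have hsumA : ∑ a : A, (χ : G → ℂ) a ≠ 0 := by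
    intro h0
    apply h1
    rw [classInner_def]
    have : ∀ a : A, ((fun y : (P : Subgroup G) => (χ : G → ℂ) y) ∘ inc) a * (starRingEnd ℂ) 1 = (χ : G → ℂ) a := by
      intro a
      simp [inc]
    rw [Finset.sum_congr rfl (fun a _ => this a), h0, mul_zero]
  have hNp := not_dvd_card_of_inf_eq_bot P N hN
  have hApg : IsPGroup p A := P.isPGroup'.to_le hAP
  have hker : ∀ n ∈ N, (χ : G → ℂ) n = (χ : G → ℂ) 1 := fun n hn => eq_deg_of_mem_N P N hN χ hχ hn
  have hmem : ∀ (n : N) (a : A), (n : G) * a ∈ Y := fun n a =>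
    Y.mul_mem (le_sup_left (a := N) n.2) (le_sup_right (a := N) a.2)
  let φ : N × A → Y := fun x => ⟨(x.1 : G) * x.2, hmem x.1 x.2⟩
  have hφ : Function.Bijective φ := by
    constructor
    · rintro ⟨n, a⟩ ⟨n', a'⟩ h
      have h2 : (n : G) * a = n' * a' := congrArg Subtype.val h
      have h3 : (n' : G)⁻¹ * n = a' * (a : G)⁻¹ := by
        rw [inv_mul_eq_iff_eq_mul, ← mul_assoc, eq_mul_inv_iff_mul_eq]
        exact h2
      have h4 : (n' : G)⁻¹ * n = 1 := by
        refine disjoint_N_of_pGroup N A hNp hApg (N.mul_mem (N.inv_mem n'.2) n.2) ?_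
        rw [h3]
        exact A.mul_mem a'.2 (A.inv_mem a.2)
      have h5 : (n : G) = n' := by
        rw [inv_mul_eq_one] at h4
        exact h4.symm
      have h6 : (a : G) = a' := by
        rw [h5] at h2
        exact mul_left_cancel h2
      exact Prod.ext (Subtype.ext h5) (Subtype.ext h6)
    · rintro ⟨y, hy⟩
      have hy' : y ∈ ((N ⊔ A : Subgroup G) : Set G) := hy
      rw [Subgroup.normal_mul] at hy'
      obtain ⟨n, hn, a, ha, rfl⟩ := hy'
      exact ⟨(⟨n, hn⟩, ⟨a, ha⟩), rfl⟩
  have hsumY : ∑ y : Y, (χ : G → ℂ) y = (Nat.card N : ℂ) * ∑ a : A, (χ : G → ℂ) a := by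
    rw [← hφ.sum_comp, Fintype.sum_prod_type]
    have : ∀ (n : N) (a : A), (χ : G → ℂ) (φ (n, a)) = (χ : G → ℂ) a := fun n a =>
      char_mul_of_ker hχc (hker n n.2) a
    simp only [this, Finset.sum_const, Finset.card_univ, nsmul_eq_mul, Nat.card_eq_fintype_card]
  have hNc : (Nat.card N : ℂ) ≠ 0 := Nat.cast_ne_zero.mpr Nat.card_pos.ne'
  have hsumY' : ∑ y : Y, (χ : G → ℂ) y ≠ 0 := by
    rw [hsumY]
    exact mul_ne_zero hNc hsumA
  have hoY : IsIrrCharacter Y (fun _ => (1 : ℂ)) := isIrrCharacter_of_deg_one isCharacter_one rfl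
  have hoC : IsIrrCharacter Y.normalCore (fun _ => (1 : ℂ)) :=
    isIrrCharacter_of_deg_one isCharacter_one rfl
  have h2 : classInner (fun y : Y => (χ : G → ℂ) y) (fun _ => (1 : ℂ)) ≠ 0 := by
    rw [classInner_def]
    refine mul_ne_zero (inv_ne_zero (Nat.cast_ne_zero.mpr Nat.card_pos.ne')) ?_
    simpa using hsumY'
  let inc2 : Y.normalCore →* Y := Subgroup.inclusion (Subgroup.normalCore_le Y)
  have h3 : classInner ((fun y : Y => (χ : G → ℂ) y) ∘ inc2) (fun _ => (1 : ℂ)) ≠ 0 := by
    refine classInner_ne_zero_mono inc2 (isCharacter_restrict _ hχc) hoY h2 isCharacter_one ?_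
    have hfun : (fun _ : Y => (1 : ℂ)) ∘ inc2 = fun _ => (1 : ℂ) := rfl
    rw [hfun, classInner_self_of_isIrr hoC]
    exact one_ne_zero
  have hsumC : ∑ c : Y.normalCore, (χ : G → ℂ) c ≠ 0 := by
    intro h0
    apply h3
    rw [classInner_def]
    have : ∀ a : Y.normalCore, ((fun y : Y => (χ : G → ℂ) y) ∘ inc2) a * (starRingEnd ℂ) 1 = (χ : G → ℂ) a := by
      intro a
      simp [inc2]
    rw [Finset.sum_congr rfl (fun a _ => this a), h0, mul_zero]
  exact eq_deg_of_sum_ne_zero (Subgroup.normalCore_normal Y) χ.2 hsumC ⟨m, hm⟩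

/-- The intersection of the kernels of the irreducible characters of degree prime to `p`. -/
noncomputable def kerSub (G : Type u) [Group G] [Finite G] (p : ℕ) : Subgroup G :=
  ⨅ χ : {χ : IrrCharacter G // ¬ p ∣ charDegree (χ : G → ℂ)},
    charKer (isCharacter_of_isIrrCharacter χ.1.2)

theorem mem_kerSub {g : G} : g ∈ kerSub G p ↔
    ∀ χ : IrrCharacter G, ¬ p ∣ charDegree (χ : G → ℂ) → (χ : G → ℂ) g = (χ : G → ℂ) 1 := by
  rw [kerSub, Subgroup.mem_iInf]
  constructor
  · intro h χ hχ
    exact h ⟨χ, hχ⟩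
  · intro h χ
    exact h χ.1 χ.2

instance kerSub_normal : (kerSub G p).Normal :=
  ⟨fun n hn g => by
    rw [mem_kerSub] at hn ⊢
    intro χ hχ
    rw [isClassFunction_of_isIrrCharacter χ.2 n g]
    exact hn χ hχ⟩

/-- For `y` centralising a Sylow `p`-subgroup, a character of degree divisible by `p` takes at `y`
a value in the local ideal. -/
theorem memLocalIdeal_of_centralizer {M : Ideal AlgInt} (hM : IsPModular p M) (P : Sylow p G)
    {y : G} (hy : y ∈ centralizer ((P : Subgroup G) : Set G)) (χ : IrrCharacter G)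
    (hχ : p ∣ charDegree (χ : G → ℂ)) : MemLocalIdeal M ((χ : G → ℂ) y) := by
  classical
  letI := Fintype.ofFinite G
  haveI := isPrime_of_pModular hM
  have hle : (P : Subgroup G) ≤ centralizer ({y} : Set G) := by
    intro x hx
    rw [Subgroup.mem_centralizer_iff]
    intro z hz
    rw [Set.mem_singleton_iff] at hz
    subst hz
    exact ((Subgroup.mem_centralizer_iff.mp hy) x hx).symm
  have hc : ¬ p ∣ (centralizer ({y} : Set G)).index := fun h =>
    P.not_dvd_index (h.trans (Subgroup.index_dvd_of_le hle))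
  have hχc := isCharacter_of_isIrrCharacter χ.2
  have hd : (χ : G → ℂ) 1 ≠ 0 := by
    rw [← charDegree_natCast hχc]
    exact Nat.cast_ne_zero.mpr (charDegree_pos χ.2).ne'
  have hcne : ((centralizer ({y} : Set G)).index : ℂ) ≠ 0 :=
    Nat.cast_ne_zero.mpr (fun h => hc (h ▸ dvd_zero p))
  have hval : (χ : G → ℂ) y = (χ : G → ℂ) 1 * (centralChar (χ : G → ℂ) y *
      ((centralizer ({y} : Set G)).index : ℂ)⁻¹) := by
    simp only [centralChar]
    field_simp
  rw [hval]
  refine memLocalIdeal_mul_right ?_ ?_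
  · rw [← charDegree_natCast hχc]
    exact (natCast_memLocalIdeal_iff hM _).mpr hχ
  · exact memLocalRing_mul (memLocalRing_of_isIntegral (isIntegral_centralChar χ y))
      (memLocalRing_natCast_inv hM hc)

/-- A `p`-regular element of `kerSub` centralising a Sylow `p`-subgroup is trivial. -/
theorem eq_one_of_mem_kerSub_centralizer (P : Sylow p G) {y : G} (hy : y ∈ kerSub G p)
    (hc : y ∈ centralizer ((P : Subgroup G) : Set G)) (hord : ¬ p ∣ orderOf y) : y = 1 := by
  classical
  letI := Fintype.ofFinite G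
  letI : Fintype (P : Subgroup G) := Fintype.ofFinite _
  haveI := finite_irrCharacter (G := G)
  letI := Fintype.ofFinite (IrrCharacter G)
  obtain ⟨M, hM⟩ := Cfsg.Agent.Lib.BlockH.Basic.exists_isPModular (p := p) hp.out
  haveI := isPrime_of_pModular hM
  by_contra hne
  let τ : G → ℂ := indFun (P : Subgroup G) (fun _ => 1)
  have hτ : IsCharacter G τ := isCharacter_indFun _ isCharacter_one
  have hτ1 : τ 1 = ((P : Subgroup G).index : ℂ) := by
    simp [τ, indFun_one]
  have hτy : τ y = 0 := by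
    simp only [τ, indFun_apply]
    rw [Finset.sum_eq_zero, mul_zero]
    intro x _
    apply extendByZero_of_not_mem
    intro hx
    obtain ⟨k, hk⟩ := (IsPGroup.iff_orderOf.mp P.isPGroup') ⟨x⁻¹ * y * x, hx⟩
    rw [Subgroup.orderOf_mk] at hk
    have h1 : orderOf (x⁻¹ * y * x) = orderOf y := by
      have := (MulAut.conj x⁻¹).orderOf_eq y
      simpa [MulAut.conj_apply] using this
    rw [h1] at hk
    rcases k with _ | k
    · rw [pow_zero] at hk
      exact hne (orderOf_eq_one_iff.mp hk)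
    · exact hord (hk ▸ dvd_pow_self p (Nat.succ_ne_zero k))
  obtain ⟨m, hm⟩ := exists_nat_combination hτ
  have hmem : MemLocalIdeal M (τ y - τ 1) := by
    have h2 : τ y - τ 1 = ∑ i : IrrCharacter G, (m i : ℂ) * ((i : G → ℂ) y - (i : G → ℂ) 1) := by
      rw [hm, Finset.sum_apply, Finset.sum_apply, ← Finset.sum_sub_distrib]
      refine Finset.sum_congr rfl fun i _ => ?_
      simp only [Pi.smul_apply, nsmul_eq_mul]
      ring
    rw [h2]
    refine memLocalIdeal_sum _ _ fun i _ => memLocalIdeal_mul_left (memLocalRing_natCast _) ?_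
    by_cases hi : p ∣ charDegree (i : G → ℂ)
    · refine memLocalIdeal_sub (memLocalIdeal_of_centralizer hM P hc i hi) ?_
      rw [← charDegree_natCast (isCharacter_of_isIrrCharacter i.2)]
      exact (natCast_memLocalIdeal_iff hM _).mpr hi
    · rw [mem_kerSub.mp hy i hi, sub_self]
      exact memLocalIdeal_zero
  rw [hτy, hτ1, zero_sub] at hmem
  have h3 := memLocalIdeal_neg hmem
  rw [neg_neg] at h3
  exact P.not_dvd_index ((natCast_memLocalIdeal_iff hM _).mp h3)

/-- `kerSub ∩ P ≤ P'`. -/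
theorem kerSub_inf_le (P : Sylow p G) {x : G} (hxK : x ∈ kerSub G p) (hxP : x ∈ (P : Subgroup G)) :
    x ∈ ⁅(P : Subgroup G), (P : Subgroup G)⁆ := by
  classical
  letI := Fintype.ofFinite G
  letI : Fintype (P : Subgroup G) := Fintype.ofFinite _
  by_contra hx
  let x' : (P : Subgroup G) := ⟨x, hxP⟩
  have hx' : Abelianization.of x' ≠ 1 := by
    intro h
    have h1 : x' ∈ (Abelianization.of (G := (P : Subgroup G))).ker := h
    rw [Abelianization.ker_of] at h1
    apply hx
    rw [← Subgroup.map_subtype_commutator]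
    exact ⟨x', h1, rfl⟩
  obtain ⟨ψ, hψ⟩ : ∃ ψ : IrrCharacter (Abelianization (P : Subgroup G)),
      ψ.1 (Abelianization.of x') ≠ ψ.1 1 := by
    by_contra hcon
    push Not at hcon
    exact hx' (eq_one_of_forall_irr hcon)
  have hψ1 : ψ.1 1 = 1 := isIrr_deg_one_of_comm (fun a b => mul_comm a b) ψ.2
  have hlam : IsIrrCharacter (P : Subgroup G) (ψ.1 ∘ Abelianization.of) :=
    isIrrCharacter_comp Abelianization.of (QuotientGroup.mk'_surjective _) ψ.2
  have hlam1 : (ψ.1 ∘ Abelianization.of) (1 : (P : Subgroup G)) = 1 := by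
    simp [hψ1]
  have hind := isCharacter_indFun (P : Subgroup G) (isCharacter_of_isIrrCharacter hlam)
  obtain ⟨χ, h1, h2⟩ := exists_constituent_not_dvd (p := p) hind (P : Subgroup G).index
    (by rw [indFun_one, hlam1, mul_one]) P.not_dvd_index
  rw [classInner_indFun_left _ _ _ (isClassFunction_of_isIrrCharacter χ.2)] at h1
  have h3 := classInner_ne_zero_comm h1
  have h4 := eq_deg_of_constituent (isCharacter_restrict _ (isCharacter_of_isIrrCharacter χ.2)) hlam h3
    (k := x') (by simpa using mem_kerSub.mp hxK χ h2)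
  apply hψ
  have h5 : ψ.1 (Abelianization.of x') = ψ.1 (Abelianization.of 1) := h4
  rwa [map_one] at h5

/-- **Part D**: `kerSub ≤ N P'`. -/
theorem kerSub_le (P : Sylow p G) (N : Subgroup G) [hNn : N.Normal]
    (hmax : ∀ L : Subgroup G, L.Normal → L ⊓ centralizer ((P : Subgroup G) : Set G) = ⊥ → L ≤ N) :
    kerSub G p ≤ N ⊔ ⁅(P : Subgroup G), (P : Subgroup G)⁆ := by
  classical
  letI := Fintype.ofFinite G
  set K := kerSub G p with hKdef
  set X : Subgroup G := K ⊔ (P : Subgroup G) with hX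
  have hKX : K ≤ X := le_sup_left
  have hPX : (P : Subgroup G) ≤ X := le_sup_right
  letI : Fintype X := Fintype.ofFinite _
  have hdecomp : ∀ x ∈ X, ∃ k ∈ K, ∃ y ∈ (P : Subgroup G), x = k * y := by
    intro x hx
    have hx' : x ∈ ((K ⊔ (P : Subgroup G) : Subgroup G) : Set G) := hx
    rw [Subgroup.normal_mul] at hx'
    obtain ⟨k, hk, y, hy, rfl⟩ := hx'
    exact ⟨k, hk, y, hy, rfl⟩
  have hdeg : ∀ η : IrrCharacter X, η.1 1 = 1 ∨ p ∣ charDegree η.1 := by
    intro η
    by_cases hpd : p ∣ charDegree η.1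
    · exact Or.inr hpd
    left
    have hηc := isCharacter_of_isIrrCharacter η.2
    have hind := isCharacter_indFun X hηc
    have hidx : ¬ p ∣ X.index := fun h => P.not_dvd_index (h.trans (Subgroup.index_dvd_of_le hPX))
    obtain ⟨χ, h1, h2⟩ := exists_constituent_not_dvd (p := p) hind (X.index * charDegree η.1)
      (by
        rw [indFun_one, ← charDegree_natCast hηc]
        push_cast
        rfl)
      (fun h => ((Fact.out : p.Prime).dvd_mul.mp h).elim hidx hpd)
    rw [classInner_indFun_left _ _ _ (isClassFunction_of_isIrrCharacter χ.2)] at h1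
    have h3 := classInner_ne_zero_comm h1
    refine deg_eq_one_of_surjective η.2 hpd (Q := (P : Subgroup G)) P.isPGroup'
      (Subgroup.inclusion hPX) ?_
    intro x
    obtain ⟨k, hk, y, hy, hxy⟩ := hdecomp x x.2
    refine ⟨⟨y, hy⟩, ⟨k, hKX hk⟩, ?_, Subtype.ext hxy⟩
    refine eq_deg_of_constituent (isCharacter_restrict _ (isCharacter_of_isIrrCharacter χ.2)) η.2 h3 ?_
    simpa using mem_kerSub.mp hk χ h2
  obtain ⟨L, hLn, ⟨j, hj⟩, hLc⟩ :=
    Cfsg.Agent.Lib.CharDeep.ThompsonDeg.exists_normal_complement (G := X) (p := p) hdeg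
  have hcop : ∀ e : ℕ, Nat.Coprime (p ^ e) (Nat.card L) := fun e =>
    Nat.Coprime.pow_left e ((Nat.Prime.coprime_iff_not_dvd hp.out).mpr hLc)
  -- `X / K` is a `p`-group, so `L ≤ K`
  let K' : Subgroup X := K.subgroupOf X
  haveI hK'n : K'.Normal := Subgroup.Normal.subgroupOf inferInstance X
  have hpgQ : IsPGroup p (X ⧸ K') := by
    refine IsPGroup.of_surjective (P.isPGroup')
      ((QuotientGroup.mk' K').comp (Subgroup.inclusion hPX)) ?_
    intro q
    obtain ⟨x, rfl⟩ := QuotientGroup.mk'_surjective K' q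
    obtain ⟨k, hk, y, hy, hxy⟩ := hdecomp x x.2
    refine ⟨⟨y, hy⟩, ?_⟩
    simp only [MonoidHom.comp_apply, QuotientGroup.mk'_apply]
    rw [QuotientGroup.eq, Subgroup.mem_subgroupOf]
    have : (((Subgroup.inclusion hPX ⟨y, hy⟩ : X)⁻¹ * x : X) : G) = y⁻¹ * k * y⁻¹⁻¹ := by
      simp [hxy]
      group
    rw [this]
    exact (inferInstance : K.Normal).conj_mem k hk _
  have hLK : ∀ v : X, v ∈ L → (v : G) ∈ K := by
    intro v hv
    have h1 : (QuotientGroup.mk' K' v) ^ (Nat.card L) = 1 := by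
      rw [← map_pow]
      have : v ^ Nat.card L = 1 := by
        have h2 := pow_card_eq_one' (x := (⟨v, hv⟩ : L))
        exact congrArg Subtype.val h2
      rw [this, map_one]
    obtain ⟨e, he⟩ := hpgQ (QuotientGroup.mk' K' v)
    have h3 : orderOf (QuotientGroup.mk' K' v) = 1 :=
      Nat.eq_one_of_dvd_coprimes (hcop e) (orderOf_dvd_of_pow_eq_one he)
        (orderOf_dvd_of_pow_eq_one h1)
    have h4 := orderOf_eq_one_iff.mp h3
    have h5 : v ∈ K' := (QuotientGroup.eq_one_iff v).mp h4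
    exact h5
  have hLord : ∀ v : X, v ∈ L → ¬ p ∣ orderOf (v : G) := by
    intro v hv h
    rw [Subgroup.orderOf_coe] at h
    exact hLc (h.trans (Subgroup.orderOf_dvd_natCard L hv))
  have hKL : ∀ (g : G) (hg : g ∈ K), ¬ p ∣ orderOf g → (⟨g, hKX hg⟩ : X) ∈ L := by
    intro g hg hord
    have h1 : (QuotientGroup.mk' L (⟨g, hKX hg⟩ : X)) ^ (p ^ j) = 1 := by
      have h2 : Nat.card (X ⧸ L) = p ^ j := hj
      rw [← h2]
      exact pow_card_eq_one'
    have h2 : (QuotientGroup.mk' L (⟨g, hKX hg⟩ : X)) ^ (orderOf g) = 1 := by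
      rw [← map_pow]
      have : (⟨g, hKX hg⟩ : X) ^ orderOf g = 1 := Subtype.ext (by simp [pow_orderOf_eq_one])
      rw [this, map_one]
    have h3 : orderOf (QuotientGroup.mk' L (⟨g, hKX hg⟩ : X)) = 1 := by
      refine Nat.eq_one_of_dvd_coprimes ?_ (orderOf_dvd_of_pow_eq_one h1)
        (orderOf_dvd_of_pow_eq_one h2)
      exact Nat.Coprime.pow_left j ((Nat.Prime.coprime_iff_not_dvd hp.out).mpr hord)
    exact (QuotientGroup.eq_one_iff _).mp (orderOf_eq_one_iff.mp h3)
  -- the image `V` of `L`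
  let V : Subgroup G := L.map X.subtype
  have hVmem : ∀ v : G, v ∈ V ↔ v ∈ K ∧ ¬ p ∣ orderOf v := by
    intro v
    constructor
    · rintro ⟨l, hl, rfl⟩
      exact ⟨hLK l hl, hLord l hl⟩
    · rintro ⟨hv, hord⟩
      exact ⟨⟨v, hKX hv⟩, hKL v hv hord, rfl⟩
  have hVn : V.Normal := by
    refine ⟨fun n hn g => ?_⟩
    rw [hVmem] at hn ⊢
    refine ⟨(inferInstance : K.Normal).conj_mem n hn.1 g, ?_⟩
    have := (MulAut.conj g).orderOf_eq n
    rw [MulAut.conj_apply] at this
    rw [this]
    exact hn.2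
  have hVc : V ⊓ centralizer ((P : Subgroup G) : Set G) = ⊥ := by
    rw [eq_bot_iff]
    rintro y ⟨hyV, hyc⟩
    rw [Subgroup.mem_bot]
    have h1 := (hVmem y).mp hyV
    exact eq_one_of_mem_kerSub_centralizer P h1.1 hyc h1.2
  have hVN : V ≤ N := hmax V hVn hVc
  -- `X = L P`
  let PX : Subgroup X := (P : Subgroup G).subgroupOf X
  have hPXcard : Nat.card PX = Nat.card (P : Subgroup G) :=
    Nat.card_congr (Subgroup.subgroupOfEquivOfLe hPX).toEquiv
  obtain ⟨m, hm⟩ := IsPGroup.iff_card.mp (P.isPGroup')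
  have hXcard : Nat.card X = Nat.card L * p ^ j := by
    rw [← hj]
    exact (Subgroup.card_mul_index L).symm
  have hTtop : L ⊔ PX = ⊤ := by
    apply Subgroup.eq_top_of_card_eq
    apply Nat.dvd_antisymm (Subgroup.card_subgroup_dvd_card _)
    have h1 : p ^ j ∣ Nat.card (P : Subgroup G) := by
      refine P.pow_dvd_card_of_pow_dvd_card ?_
      have h2 : p ^ j ∣ Nat.card X := ⟨Nat.card L, by rw [hXcard, mul_comm]⟩
      exact h2.trans (Subgroup.card_subgroup_dvd_card X)
    have h3 : Nat.card L ∣ Nat.card ↥(L ⊔ PX) :=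
      Subgroup.card_dvd_of_le le_sup_left
    have h4 : Nat.card PX ∣ Nat.card ↥(L ⊔ PX) :=
      Subgroup.card_dvd_of_le le_sup_right
    have h5 : Nat.Coprime (Nat.card L) (Nat.card PX) := by
      rw [hPXcard, hm]
      exact (hcop m).symm
    have h6 := Nat.Coprime.mul_dvd_of_dvd_of_dvd h5 h3 h4
    rw [hXcard]
    refine (Nat.mul_dvd_mul_left _ ?_).trans h6
    rwa [hPXcard]
  intro k hk
  have hk' : (⟨k, hKX hk⟩ : X) ∈ ((L ⊔ PX : Subgroup X) : Set X) := by
    rw [hTtop]
    exact Subgroup.mem_top _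
  rw [Subgroup.normal_mul] at hk'
  obtain ⟨l, hl, z, hz, hlz⟩ := hk'
  have hlz' : (l : G) * z = k := congrArg Subtype.val hlz
  have hlK := hLK l hl
  have hlN : (l : G) ∈ N := hVN ⟨l, hl, rfl⟩
  have hzK : (z : G) ∈ K := by
    have : (z : G) = (l : G)⁻¹ * k := by
      rw [← hlz']
      group
    rw [this]
    exact K.mul_mem (K.inv_mem hlK) hk
  have hzA := kerSub_inf_le P hzK hz
  rw [← hlz']
  exact Subgroup.mul_mem _ (le_sup_left (a := N) hlN) (le_sup_right (a := N) hzA)

/-- The main theorem. -/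
theorem main (P : Sylow p G) (N : Subgroup G) [hNn : N.Normal]
    (hN : N ⊓ centralizer ((P : Subgroup G) : Set G) = ⊥)
    (hmax : ∀ L : Subgroup G, L.Normal → L ⊓ centralizer ((P : Subgroup G) : Set G) = ⊥ → L ≤ N) :
    {g : G | ∀ χ : IrrCharacter G, ¬ p ∣ charDegree (χ : G → ℂ) → (χ : G → ℂ) g = (χ : G → ℂ) 1} =
      ((N ⊔ ⁅(P : Subgroup G), (P : Subgroup G)⁆).normalCore : Set G) := by
  ext g
  constructor
  · intro hg
    have h1 : g ∈ kerSub G p := mem_kerSub.mpr hg
    have h2 := (Subgroup.normal_le_normalCore (N := kerSub G p)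
      (H := N ⊔ ⁅(P : Subgroup G), (P : Subgroup G)⁆)).mpr (kerSub_le P N hmax)
    exact h2 h1
  · intro hg χ hχ
    exact eq_deg_of_mem_core P N hN χ hχ hg

end Cfsg.Agent.Lib.PrimeKer.Main
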